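import Cfsg.Agent.H999.FR.Tools

/-!
# Frobenius-Schur indicators: dihedral subgroups, conjugation, split extensions (helper999, for S4970)
-/

set_option autoImplicit false

universe u

namespace Cfsg.Agent.H999.FR

open Cfsg Cfsg.Agent.H955.FS Subgroup

theorem good_congr {w : Prop} {G : Type u} [Group G] [Finite G] {Y Y' : Subgroup G} (e : Y ≃* Y') (h : FSGood w Y) :
    FSGood w Y' := h.of_equiv e

/-- subgroups generated by two involutions -/
theorem good_two {G : Type u} [Group G] [Finite G] {s r : G} (hs : s * s = 1) (hr : r * r = 1) :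
    FSGood False ↥(closure ({s, r} : Set G)) := by
  classical
  set D : Subgroup G := closure ({s, r} : Set G) with hD
  have hsD : s ∈ D := subset_closure (by simp)
  have hrD : r ∈ D := subset_closure (by simp)
  have hsi : s⁻¹ = s := inv_eq_of_mul_eq_one_left hs
  have hri : r⁻¹ = r := inv_eq_of_mul_eq_one_left hr
  set a : G := s * r with ha
  have haD : a ∈ D := mul_mem hsD hrD
  have hsa : s * a * s⁻¹ = a⁻¹ := by
    rw [ha, mul_inv_rev, hsi, hri, ← mul_assoc, hs, one_mul]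
  have hsn : ∀ n : ℤ, s * a ^ n = a ^ (-n) * s := by
    intro n
    have h1 : s * a ^ n * s⁻¹ = a ^ (-n) := by rw [← conj_zpow, hsa, inv_zpow, zpow_neg]
    rw [← h1]; group
  have hform : ∀ x ∈ D, (∃ n : ℤ, x = a ^ n) ∨ ∃ n : ℤ, x = a ^ n * s := by
    intro x hx
    have hr' : r = a ^ (-1 : ℤ) * s := by
      rw [zpow_neg_one, ha, mul_inv_rev, hsi, hri, mul_assoc, hs, mul_one]
    have mulR : ∀ x y : G, ((∃ n : ℤ, x = a ^ n) ∨ ∃ n : ℤ, x = a ^ n * s) →
        ((∃ n : ℤ, y = a ^ n) ∨ ∃ n : ℤ, y = a ^ n * s) → ((∃ n : ℤ, x * y = a ^ n) ∨ ∃ n : ℤ, x * y = a ^ n * s) := by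
      rintro x y (⟨n, rfl⟩ | ⟨n, rfl⟩) (⟨m, rfl⟩ | ⟨m, rfl⟩)
      · exact Or.inl ⟨n + m, by rw [zpow_add]⟩
      · exact Or.inr ⟨n + m, by rw [zpow_add, mul_assoc]⟩
      · refine Or.inr ⟨n - m, ?_⟩
        rw [mul_assoc, hsn, ← mul_assoc, ← zpow_add, sub_eq_add_neg]
      · refine Or.inl ⟨n - m, ?_⟩
        calc a ^ n * s * (a ^ m * s) = a ^ n * (s * a ^ m) * s := by group
          _ = a ^ n * a ^ (-m) * (s * s) := by rw [hsn]; group
          _ = a ^ (n - m) := by rw [hs, mul_one, ← zpow_add, sub_eq_add_neg]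
    refine closure_induction (p := fun x _ => (∃ n : ℤ, x = a ^ n) ∨ ∃ n : ℤ, x = a ^ n * s) ?_ ?_ ?_ ?_ hx
    · rintro x (rfl | rfl)
      · exact Or.inr ⟨0, by rw [zpow_zero, one_mul]⟩
      · exact Or.inr ⟨-1, hr'⟩
    · exact Or.inl ⟨0, by rw [zpow_zero]⟩
    · intro x y _ _ h1 h2
      exact mulR x y h1 h2
    · rintro x _ (⟨n, rfl⟩ | ⟨n, rfl⟩)
      · exact Or.inl ⟨-n, by rw [zpow_neg]⟩
      · refine Or.inr ⟨n, ?_⟩
        rw [mul_inv_rev, hsi, ← zpow_neg, hsn, neg_neg]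
  let A : Subgroup D := (zpowers a).subgroupOf D
  have hA : ∀ x : D, x ∈ A ↔ ∃ n : ℤ, (x : G) = a ^ n := by
    intro x
    rw [mem_subgroupOf, mem_zpowers_iff]
    exact ⟨fun ⟨n, h⟩ => ⟨n, h.symm⟩, fun ⟨n, h⟩ => ⟨n, h.symm⟩⟩
  have hout : ∀ n : ℤ, (a ^ n * s) * (a ^ n * s) = 1 := by
    intro n
    calc a ^ n * s * (a ^ n * s) = a ^ n * (s * a ^ n) * s := by group
      _ = a ^ n * a ^ (-n) * (s * s) := by rw [hsn]; group
      _ = 1 := by rw [hs, mul_one, ← zpow_add, add_neg_cancel, zpow_zero]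
  by_cases hsA : (⟨s, hsD⟩ : D) ∈ A
  · -- degenerate: all squares are trivial
    obtain ⟨m, hm⟩ := (hA _).1 hsA
    have hm' : s = a ^ m := hm
    have h1 : s * a * s⁻¹ = a := by
      rw [hm']
      have : Commute (a ^ m) a := (Commute.refl a).zpow_left m
      rw [this.eq, mul_inv_cancel_right]
    have h2 : a * a = 1 := by
      have h3 : a = a⁻¹ := h1.symm.trans hsa
      calc a * a = a * a⁻¹ := by rw [← h3]
        _ = 1 := mul_inv_cancel a
    refine good_of_sq fun x => Subtype.ext ?_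
    show (x : G) * x = 1
    have h3 : ∀ n : ℤ, a ^ n * a ^ n = 1 := fun n => by
      rw [← (Commute.refl a).mul_zpow, h2, one_zpow]
    rcases hform x x.2 with ⟨n, hn⟩ | ⟨n, hn⟩
    · rw [hn, h3]
    · rw [hn, hout]
  · refine good_dihedral A ?_ ?_ ?_
    · intro x hx y hy
      obtain ⟨n, hn⟩ := (hA x).1 hx
      obtain ⟨m, hm⟩ := (hA y).1 hy
      apply Subtype.ext
      show (x : G) * y = y * x
      rw [hn, hm, ← zpow_add, ← zpow_add, add_comm]
    · rw [index_eq_two_iff]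
      refine ⟨⟨s, hsD⟩, fun x => ?_⟩
      by_cases hx : x ∈ A
      · refine Or.inr ⟨hx, fun h => hsA ?_⟩
        have := mul_mem (inv_mem hx) h
        rwa [inv_mul_cancel_left] at this
      · refine Or.inl ⟨?_, hx⟩
        rw [hA]
        rcases hform x x.2 with ⟨n, hn⟩ | ⟨n, hn⟩
        · exact absurd ((hA x).2 ⟨n, hn⟩) hx
        · refine ⟨n, ?_⟩
          show (x : G) * s = a ^ n
          rw [hn, mul_assoc, hs, mul_one]
    · intro x hx
      apply Subtype.ext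
      show (x : G) * x = 1
      rcases hform x x.2 with ⟨n, hn⟩ | ⟨n, hn⟩
      · exact absurd ((hA x).2 ⟨n, hn⟩) hx
      · rw [hn, hout]

/-- transport of a cover by conjugation -/
theorem cover_conj {G : Type u} [Group G] [Finite G] {c : G} {P : Subgroup G} (k : G) {w : Prop}
    (h : ∃ Y : Subgroup G, k * c * k⁻¹ ∈ Y ∧ (∀ x ∈ P, k * x * k⁻¹ ∈ Y) ∧ FSGood w Y) :
    ∃ Y : Subgroup G, c ∈ Y ∧ P ≤ Y ∧ FSGood w Y := by
  obtain ⟨Y, h1, h2, h3⟩ := h
  refine ⟨Y.map (MulAut.conj k).symm.toMonoidHom, ?_, fun x hx => ?_, ?_⟩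
  · exact (mem_map_equiv (f := (MulAut.conj k).symm)).2 h1
  · exact (mem_map_equiv (f := (MulAut.conj k).symm)).2 (h2 x hx)
  · exact h3.of_equiv ((MulAut.conj k).symm.subgroupMap Y)

/-- a 2-subgroup is conjugate into a 2-subgroup of odd index -/
theorem exists_conj_mem {G : Type u} [Group G] [Finite G] {S P : Subgroup G} (hS : IsPGroup 2 S) (hi : Odd S.index)
    (hP : IsPGroup 2 P) : ∃ k : G, ∀ x ∈ P, k * x * k⁻¹ ∈ S := by
  have hf : Fact (Nat.Prime 2) := ⟨Nat.prime_two⟩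
  have h2 : ¬ 2 ∣ S.index := by
    rw [Nat.two_dvd_ne_zero]
    exact Nat.odd_iff.1 hi
  let T : Sylow 2 G := hS.toSylow h2
  obtain ⟨R, hR⟩ := hP.exists_le_sylow
  obtain ⟨k, hk⟩ := MulAction.exists_smul_eq G R T
  refine ⟨k, fun x hx => ?_⟩
  have h3 : k * x * k⁻¹ ∈ ((k • R : Sylow 2 G) : Subgroup G) := by
    rw [Sylow.coe_subgroup_smul]
    exact Set.smul_mem_smul_set (hR hx)
  rw [hk] at h3
  exact h3

/-- the elements of exponent two form complements -/
theorem good_split {G : Type u} [Group G] [Finite G] (X A L : Subgroup G) (hAX : A ≤ X) (hLX : L ≤ X)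
    (hAn : ∀ x ∈ X, ∀ a ∈ A, x * a * x⁻¹ ∈ A) (hA : ∀ a ∈ A, a * a = 1) (hL : ∀ a ∈ L, a * a = 1)
    (hAL : ∀ a ∈ L, a ∈ A → a = 1) (hdec : ∀ x ∈ X, ∃ y ∈ L, x * y ∈ A) : FSGood False X := by
  refine good_semidirect X A hAX hAn hA (Y := L) L.subtype (fun y => hLX y.2)
    (fun y hy => Subtype.ext (hAL y y.2 hy)) ?_ ?_
  · intro x hx
    obtain ⟨y, hy, h⟩ := hdec x hx
    exact ⟨x * y, h, (⟨y, hy⟩ : L)⁻¹, by simp⟩
  · intro lam hlam hpm
    let S : Subgroup L :=
      { carrier := {y | ∀ a ∈ A, lam (L.subtype y * a * (L.subtype y)⁻¹) = lam a}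
        mul_mem' := by
          intro y y' h h' a ha
          have h1 := h (L.subtype y' * a * (L.subtype y')⁻¹) (hAn _ (hLX y'.2) a ha)
          rw [h' a ha] at h1
          rw [← h1]
          congr 1
          rw [map_mul]
          group
        one_mem' := by
          intro a _
          rw [map_one, one_mul, inv_one, mul_one]
        inv_mem' := by
          intro y h
          have e : y⁻¹ = y := inv_eq_of_mul_eq_one_left (Subtype.ext (hL y y.2))
          rw [e]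
          exact h }
    exact ⟨S, fun y => Iff.rfl, good_of_sq fun y => Subtype.ext (Subtype.ext (hL y y.1.2))⟩

end Cfsg.Agent.H999.FR
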