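import Cfsg.Agent.H999.FR.Tools
import Cfsg.Agent.H413.JOneLocal
import Cfsg.Prelude.Def_Spor_J1

/-!
# Frobenius-Schur indicators of the first Janko group (helper999, S4970)
-/

set_option autoImplicit false

universe u

namespace Cfsg.Agent.H999.FR.JOne

open Cfsg Cfsg.Agent.H955.FS Cfsg.Agent.H721.FR Subgroup

theorem no_four_alt : ∀ a : Multiplicative (ZMod 2) × alternatingGroup (Fin 5), a ^ 4 = 1 → a ^ 2 = 1 := by
  rintro ⟨a, b⟩ h
  have h1 : ∀ a : Multiplicative (ZMod 2), a ^ 2 = 1 := by decide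
  have h2 : ∀ b : alternatingGroup (Fin 5), b ^ 4 = 1 → b ^ 2 = 1 := by decide +kernel
  exact Prod.ext (h1 a) (h2 b (congrArg Prod.snd h))

theorem no_four (g : Cfsg.Spor.J1) : orderOf g ≠ 4 := by
  intro hg
  have hx : orderOf (g ^ 2) = 2 := by
    rw [orderOf_pow_of_dvd (by norm_num) (by rw [hg]; norm_num), hg]
  obtain ⟨e⟩ := H413.JOneLocal.isLocal.cent (g ^ 2) hx
  have h1 : g ∈ centralizer ({g ^ 2} : Set Cfsg.Spor.J1) := by
    rw [mem_centralizer_singleton_iff, ← pow_succ, ← pow_succ']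
  have h2 : (e ⟨g, h1⟩) ^ 4 = 1 := by
    rw [← map_pow]
    have : (⟨g, h1⟩ : centralizer ({g ^ 2} : Set Cfsg.Spor.J1)) ^ 4 = 1 := Subtype.ext (by
      rw [SubgroupClass.coe_pow, ← hg]; exact pow_orderOf_eq_one g)
    rw [this, map_one]
  have h3 := no_four_alt _ h2
  rw [← map_pow] at h3
  have h4 : (⟨g, h1⟩ : centralizer ({g ^ 2} : Set Cfsg.Spor.J1)) ^ 2 = 1 := e.injective (by rw [h3, map_one])
  have h5 : g ^ 2 = 1 := congrArg Subtype.val h4
  rw [h5, orderOf_one] at hx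
  norm_num at hx

variable {K : Type u} [Group K]

theorem no_four' (h : Cfsg.Spor.IsoJ1 K) (x : K) : orderOf x ≠ 4 := fun hx => by
  obtain ⟨e⟩ := h
  exact no_four (e x) (by rw [← hx]; exact orderOf_injective e.toMonoidHom e.injective x)

/-- a group without elements of order four has 2-elements of order at most two -/
theorem sq_eq_one_of {G : Type*} [Group G] (h4 : ∀ x : G, orderOf x ≠ 4) {S : Subgroup G} (hS : IsPGroup 2 S) :
    ∀ s ∈ S, s * s = 1 := by
  have : Fact (Nat.Prime 2) := ⟨Nat.prime_two⟩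
  intro s hs
  obtain ⟨k, hk⟩ := (IsPGroup.iff_orderOf.1 hS) ⟨s, hs⟩
  rw [Subgroup.orderOf_mk] at hk
  have h1 : k ≤ 1 := by
    by_contra hne
    refine h4 (s ^ 2 ^ (k - 2)) ?_
    rw [orderOf_pow_of_dvd (pow_ne_zero _ two_ne_zero) (by rw [hk]; exact pow_dvd_pow 2 (by omega)), hk,
      Nat.pow_div (by omega) (by norm_num), show k - (k - 2) = 2 by omega]
  rw [← pow_two]
  apply orderOf_dvd_iff_pow_eq_one.1
  rw [hk]
  exact (pow_dvd_pow 2 h1)

/-- **J₁ has no irreducible character of indicator `-1`** -/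
theorem good_j1 [Finite K] (h : Cfsg.Spor.IsoJ1 K) : FSGood True K :=
  good_of_elem fun _ hP => sq_eq_one_of (no_four' h) hP

theorem fr_j1 [Finite K] (h : Cfsg.Spor.IsoJ1 K) : FR K := FR.of_good (good_j1 h)

end Cfsg.Agent.H999.FR.JOne
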