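import Cfsg.Agent.H999.FR.JTwoC
import Cfsg.Agent.H168.FRHex.Cover
import Cfsg.Agent.KFacts.J2.Facts

/-!
# Frobenius-Schur indicators of the Hall-Janko group (helper999, for S4970)
-/

set_option autoImplicit false

universe u

namespace Cfsg.Agent.H999.FR.JTwo

open Cfsg Cfsg.Agent.H955.FS Subgroup Cfsg.Agent.H999.FR Cfsg.Agent.H721.FR
open Cfsg.Agent.KFacts.J2.Basic

/-- transport of the centraliser along conjugation -/
theorem good_cent {X : Type u} [Group X] [Finite X] {a b : X} (h : IsConj a b)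
    (hg : FSGood True ↥(centralizer ({a} : Set X))) : FSGood True ↥(centralizer ({b} : Set X)) := by
  obtain ⟨k, rfl⟩ := isConj_iff.1 h
  exact hg.of_equiv (Cfsg.Agent.KFacts.J2.Facts.centMap (MulAut.conj k) a)

variable {X : Type u} [Group X] [Finite X]

theorem good_u {t u : X} (F : Cfsg.Agent.J2Type.Base.Fus t u) (hc : Nat.card (centralizer ({u} : Set X)) = 240) :
    FSGood True ↥(centralizer ({u} : Set X)) := by
  let E : Subgroup (centralizer ({u} : Set X)) := (centralizer ({t} : Set X)).subgroupOf (centralizer ({u} : Set X))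
  have hE : Nat.card E = 16 := by
    rw [← F.cardE, inf_comm]
    exact (Nat.card_congr (Subgroup.subgroupOfEquivOfLe (H := centralizer ({u} : Set X) ⊓ centralizer ({t} : Set X))
      (K := centralizer ({u} : Set X)) inf_le_left).toEquiv).symm.trans (by rw [inf_subgroupOf_left]) |>.symm
  have h2 : IsPGroup 2 E := IsPGroup.of_card (n := 4) (by rw [hE]; norm_num)
  have hi : Odd E.index := by
    have h1 := E.card_mul_index
    rw [hE, hc] at h1
    have h2 : E.index = 15 := by omega
    rw [h2]; decide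
  refine good_of_elem fun P hP x hx => ?_
  obtain ⟨k, hk⟩ := exists_conj_mem h2 hi hP
  have h3 := hk x hx
  have h4 : (k * x * k⁻¹) * (k * x * k⁻¹) = 1 := by
    apply Subtype.ext
    exact F.sqE _ (mem_cent.1 (mem_subgroupOf.1 h3)) (mem_cent.1 (k * x * k⁻¹).2)
  exact (Cfsg.Agent.J2Type.CStruct.conj_sq_iff k x).1 h4

/-- **J₂ has no irreducible character of indicator `-1`** -/
theorem good_j2 (h : Cfsg.Spor.IsoJ2 X) : FSGood True X := by
  obtain ⟨t, u, Q, v, ρ, D⟩ := Cfsg.Agent.KFacts.J2.Facts.exists_dat_of h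
  refine Cfsg.Agent.H168.FRHex.inv_cover fun z hz hz1 => ?_
  rcases D.F.cover z (orderOf_two hz hz1) with h | h
  · exact good_cent h (JTwoC.good_C D.M D.cardC (Subtype.ext D.uu) D.u_notMem)
  · exact good_cent h (good_u D.F D.card_cent_u)

theorem fr_j2 (h : Cfsg.Spor.IsoJ2 X) : FR X := FR.of_good (good_j2 h)

end Cfsg.Agent.H999.FR.JTwo
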