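import Cfsg.Agent.H999.FR.Gen
import Cfsg.Agent.J2Type.COdd

/-!
# The centraliser `2^{1+4}:A₅` in `J₂`: no Frobenius-Schur indicator is `-1` (helper999, for S4970)
-/

set_option autoImplicit false

universe u

namespace Cfsg.Agent.H999.FR.JTwoC

open Cfsg Cfsg.Agent.H955.FS Subgroup Cfsg.Agent.H999.FR
open Cfsg.Agent.J2Type.Model Cfsg.Agent.J2Type.SPFacts Cfsg.Agent.J2Type.CStruct Cfsg.Agent.J2Type.COdd

/-- the four-group on `{0, 1, 2, 3}` -/
def V4 : Finset (Equiv.Perm (Fin 5)) := {1, σ0, σ1, σ0 * σ1}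

def b1 : SP := ⟨σ0, fun i => if i = 0 ∨ i = 1 then 1 else 0⟩
def b2 : SP := ⟨σ1, fun i => if i = 0 ∨ i = 2 then 1 else 0⟩

/-- the elements over `V4` -/
def S0 : Finset SP := (V4 ×ˢ (Finset.univ : Finset (Fin 4 → ZMod 2))).image fun p =>
  ⟨p.1, fun i => if h : (i : ℕ) < 4 then p.2 ⟨i, h⟩ else ∑ j, p.2 j⟩

def U0 : Finset SP := S0.filter fun g => g.s 4 = 0

theorem card_S0 : S0.card = 64 := by decide +kernel
theorem S0_E : ∀ g ∈ S0, Equiv.Perm.sign g.σ = 1 ∧ ∑ i, g.s i = 0 := by decide +kernel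
theorem V4_mul : ∀ g ∈ V4, ∀ h ∈ V4, g * h ∈ V4 := by decide +kernel
theorem V4_inv : ∀ g ∈ V4, g⁻¹ ∈ V4 := by decide +kernel
theorem V4_four : ∀ g ∈ V4, g 4 = 4 := by decide +kernel
theorem S0_σ : ∀ g ∈ S0, g.σ ∈ V4 := by decide +kernel
theorem B_mul' : ∀ g ∈ B, ∀ h ∈ B, g * h ∈ B := by decide +kernel
theorem B_S0 : ∀ g ∈ B, g.σ ∈ V4 ∧ g.s 4 = 0 := by decide +kernel
theorem U0_conj : ∀ g ∈ U0, ∀ b ∈ B, g * b * g⁻¹ ∈ B := by decide +kernel
theorem U0_dec : ∀ g ∈ U0, g ∈ B ∨ g * b1 ∈ B ∨ g * b2 ∈ B ∨ g * (b1 * b2) ∈ B := by decide +kernel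
theorem b1_E : Equiv.Perm.sign b1.σ = 1 ∧ ∑ i, b1.s i = 0 := by decide +kernel
theorem b2_E : Equiv.Perm.sign b2.σ = 1 ∧ ∑ i, b2.s i = 0 := by decide +kernel
theorem b1_sq : b1 * b1 = 1 ∧ b1.σ ≠ 1 ∧ b1 ∉ B ∧ b1.σ ∈ V4 ∧ b1.s 4 = 0 := by decide +kernel
theorem b2_sq : b2 * b2 = 1 ∧ b2.σ ≠ 1 ∧ b2 ∉ B ∧ b2.σ ∈ V4 ∧ b2.s 4 = 0 := by decide +kernel
theorem b12_sq : (b1 * b2) * (b1 * b2) = 1 ∧ (b1 * b2).σ ≠ 1 ∧ b1 * b2 ∉ B := by decide +kernel

theorem mem_S0 {g : SP} (h : g.σ ∈ V4) (hs : ∑ i, g.s i = 0) : g ∈ S0 := by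
  have key : ∀ s : Fin 5 → ZMod 2, ∑ i, s i = 0 →
      s = fun i : Fin 5 => if h : (i : ℕ) < 4 then s ⟨(i : ℕ), by omega⟩ else ∑ j : Fin 4, s ⟨(j : ℕ), by omega⟩ := by
    decide +kernel
  refine Finset.mem_image.2 ⟨(g.σ, fun i => g.s ⟨i, by omega⟩), Finset.mem_product.2 ⟨h, Finset.mem_univ _⟩, ?_⟩
  apply SP.ext
  · rfl
  · exact (key g.s hs).symm

section

variable {C : Type u} [Group C] {Q : Subgroup C} {z : C} {v : Fin 5 → C} {ρ : C →* SP}

theorem E (M : IsModel Q z v ρ) (x : C) : Equiv.Perm.sign (ρ x).σ = 1 ∧ ∑ i, (ρ x).s i = 0 := (M.range _).1 ⟨x, rfl⟩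

/-- the Sylow 2-subgroup over `V4` -/
def SS (ρ : C →* SP) : Subgroup C where
  carrier := {x | (ρ x).σ ∈ V4}
  mul_mem' := by
    intro a b ha hb
    show (ρ (a * b)).σ ∈ V4
    rw [map_mul, mul_σ]
    exact V4_mul _ ha _ hb
  one_mem' := by
    show (ρ 1).σ ∈ V4
    rw [map_one, one_σ]
    decide +kernel
  inv_mem' := by
    intro a ha
    show (ρ a⁻¹).σ ∈ V4
    rw [map_inv, inv_σ]
    exact V4_inv _ ha

theorem mem_SS {x : C} : x ∈ SS ρ ↔ (ρ x).σ ∈ V4 := Iff.rfl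

theorem card_SS (M : IsModel Q z v ρ) : Nat.card (SS ρ) = 128 := by
  have h := card_fiber M S0 S0_E
  rw [card_S0] at h
  rw [show (128 : ℕ) = 2 * 64 by norm_num, ← h]
  refine Nat.card_congr (Equiv.subtypeEquivRight fun x => ?_)
  exact ⟨fun hx => mem_S0 hx (E M x).2, fun hx => S0_σ _ hx⟩

theorem isPGroup_SS (M : IsModel Q z v ρ) : IsPGroup 2 (SS ρ) :=
  IsPGroup.of_card (n := 7) (by rw [card_SS M]; norm_num)

/-- the sign at the letter 4 -/
def sg (ρ : C →* SP) : SS ρ →* Multiplicative (ZMod 2) where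
  toFun x := Multiplicative.ofAdd ((ρ x).s 4)
  map_one' := by
    show Multiplicative.ofAdd ((ρ 1).s 4) = 1
    rw [map_one]; rfl
  map_mul' a b := by
    show Multiplicative.ofAdd ((ρ (a * b)).s 4) = _
    rw [map_mul, mul_s, V4_four _ b.2, add_comm]
    rfl

/-- the group of elements over `U0` -/
def UU (ρ : C →* SP) : Subgroup C := (sg ρ).ker.map (SS ρ).subtype

theorem mem_UU {x : C} : x ∈ UU ρ ↔ (ρ x).σ ∈ V4 ∧ (ρ x).s 4 = 0 := by
  constructor
  · rintro ⟨y, hy, rfl⟩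
    exact ⟨y.2, hy⟩
  · rintro ⟨h1, h2⟩
    exact ⟨⟨x, h1⟩, h2, rfl⟩

theorem mem_U0 (M : IsModel Q z v ρ) {x : C} (h : x ∈ UU ρ) : ρ x ∈ U0 :=
  Finset.mem_filter.2 ⟨mem_S0 (mem_UU.1 h).1 (E M x).2, (mem_UU.1 h).2⟩

theorem pow_four_Q (M : IsModel Q z v ρ) {q : C} (hq : q ∈ Q) : q ^ 4 = 1 := by
  have key : q ^ 2 = 1 ∨ q ^ 2 = z := by
    rcases M.cover q hq with ⟨a, h⟩ | ⟨a, i, h⟩ | ⟨a, i, j, hij, h⟩
    · left; rw [h, pow_two]; exact zp_sq M a
    · left; rw [h, pow_two]; exact zv_sq M a i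
    · right; rw [h, pow_two, sq_zp_mul M, vv_sq M hij.ne]
  rw [show 4 = 2 * 2 by norm_num, pow_mul]
  rcases key with h | h
  · rw [h, one_pow]
  · rw [h, pow_two, M.z_sq]

/-- the elements over `B` -/
def AA (ρ : C →* SP) (_ : IsModel Q z v ρ) : Subgroup C where
  carrier := {x | ρ x ∈ B}
  mul_mem' := by
    intro a b ha hb
    show ρ (a * b) ∈ B
    rw [map_mul]
    exact B_mul' _ ha _ hb
  one_mem' := by
    show ρ 1 ∈ B
    rw [map_one]
    decide +kernel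
  inv_mem' := by
    intro a ha
    show ρ a⁻¹ ∈ B
    have h1 := B_sq _ ha
    rw [map_inv, inv_eq_of_mul_eq_one_left h1]
    exact ha

theorem mem_AA {M : IsModel Q z v ρ} {x : C} : x ∈ AA ρ M ↔ ρ x ∈ B := Iff.rfl

theorem AA_sq (M : IsModel Q z v ρ) {u : C} (hu : u * u = 1) (huQ : u ∉ Q) {x : C} (hx : x ∈ AA ρ M) :
    x * x = 1 := by
  by_cases h : (ρ x).σ = 1
  · rcases B_one _ (mem_AA.1 hx) h with h1 | h1
    · obtain ⟨a, ha⟩ := eq_of_rho_eq M (x := x) (y := 1) (by rw [h1, map_one])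
      rw [ha, mul_one]; exact zp_sq M a
    · obtain ⟨a, ha⟩ := eq_of_rho_eq M (x := x) (y := v 4) (by rw [h1, rho_v M])
      rw [ha]; exact zv_sq M a 4
  · exact sq_of_rho_sq M hu huQ (B_sq _ (mem_AA.1 hx)) h

theorem good_UU (M : IsModel Q z v ρ) [Finite C] {u : C} (hu : u * u = 1) (huQ : u ∉ Q) : FSGood False (UU ρ) := by
  obtain ⟨x1, h1⟩ := (M.range b1).2 b1_E
  obtain ⟨x2, h2⟩ := (M.range b2).2 b2_E
  have h12 : ρ (x1 * x2) = b1 * b2 := by rw [map_mul, h1, h2]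
  have q1 : x1 * x1 = 1 := sq_of_rho_sq M hu huQ (by rw [h1]; exact b1_sq.1) (by rw [h1]; exact b1_sq.2.1)
  have q2 : x2 * x2 = 1 := sq_of_rho_sq M hu huQ (by rw [h2]; exact b2_sq.1) (by rw [h2]; exact b2_sq.2.1)
  have q12 : (x1 * x2) * (x1 * x2) = 1 :=
    sq_of_rho_sq M hu huQ (by rw [h12]; exact b12_sq.1) (by rw [h12]; exact b12_sq.2.1)
  have hc : x1 * x2 = x2 * x1 := by
    calc x1 * x2 = x1 * (x1 * x2 * (x1 * x2)) * x2 := by rw [q12, mul_one]
      _ = (x1 * x1) * x2 * x1 * (x2 * x2) := by group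
      _ = x2 * x1 := by rw [q1, q2, one_mul, mul_one]
  let L : Subgroup C :=
    { carrier := {x | x = 1 ∨ x = x1 ∨ x = x2 ∨ x = x1 * x2}
      mul_mem' := by
        rintro a b (rfl | rfl | rfl | rfl) (rfl | rfl | rfl | rfl)
        · left; rw [mul_one]
        · right; left; rw [one_mul]
        · right; right; left; rw [one_mul]
        · right; right; right; rw [one_mul]
        · right; left; rw [mul_one]
        · left; exact q1
        · right; right; right; rfl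
        · right; right; left; rw [← mul_assoc, q1, one_mul]
        · right; right; left; rw [mul_one]
        · right; right; right; exact hc.symm
        · left; exact q2
        · right; left; rw [hc, ← mul_assoc, q2, one_mul]
        · right; right; right; rw [mul_one]
        · right; right; left; rw [hc, mul_assoc, q1, mul_one]
        · right; left; rw [mul_assoc, q2, mul_one]
        · left; exact q12
      one_mem' := Or.inl rfl
      inv_mem' := by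
        rintro a (rfl | rfl | rfl | rfl)
        · left; exact inv_one
        · right; left; exact inv_eq_of_mul_eq_one_left q1
        · right; right; left; exact inv_eq_of_mul_eq_one_left q2
        · right; right; right; exact inv_eq_of_mul_eq_one_left q12 }
  have hL : ∀ x, x ∈ L ↔ x = 1 ∨ x = x1 ∨ x = x2 ∨ x = x1 * x2 := fun x => Iff.rfl
  have m1 : x1 ∈ UU ρ := mem_UU.2 (by rw [h1]; exact ⟨b1_sq.2.2.2.1, b1_sq.2.2.2.2⟩)
  have m2 : x2 ∈ UU ρ := mem_UU.2 (by rw [h2]; exact ⟨b2_sq.2.2.2.1, b2_sq.2.2.2.2⟩)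
  refine good_split (UU ρ) (AA ρ M) L ?_ ?_ ?_ ?_ ?_ ?_ ?_
  · intro x hx
    exact mem_UU.2 (B_S0 _ (mem_AA.1 hx))
  · intro x hx
    rcases (hL x).1 hx with rfl | rfl | rfl | rfl
    · exact one_mem _
    · exact m1
    · exact m2
    · exact mul_mem m1 m2
  · intro x hx a ha
    rw [mem_AA, map_mul, map_mul, map_inv]
    exact U0_conj _ (mem_U0 M hx) _ (mem_AA.1 ha)
  · intro a ha
    exact AA_sq M hu huQ ha
  · intro a ha
    rcases (hL a).1 ha with rfl | rfl | rfl | rfl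
    · exact mul_one 1
    · exact q1
    · exact q2
    · exact q12
  · intro a ha haA
    rw [mem_AA] at haA
    rcases (hL a).1 ha with rfl | rfl | rfl | rfl
    · rfl
    · rw [h1] at haA; exact absurd haA b1_sq.2.2.1
    · rw [h2] at haA; exact absurd haA b2_sq.2.2.1
    · rw [h12] at haA; exact absurd haA b12_sq.2.2
  · intro x hx
    rcases U0_dec _ (mem_U0 M hx) with h | h | h | h
    · exact ⟨1, one_mem _, by rw [mul_one]; exact h⟩
    · exact ⟨x1, (hL _).2 (Or.inr (Or.inl rfl)), by rw [mem_AA, map_mul, h1]; exact h⟩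
    · exact ⟨x2, (hL _).2 (Or.inr (Or.inr (Or.inl rfl))), by rw [mem_AA, map_mul, h2]; exact h⟩
    · exact ⟨x1 * x2, (hL _).2 (Or.inr (Or.inr (Or.inr rfl))), by rw [mem_AA, map_mul, h12]; exact h⟩

theorem good_SS (M : IsModel Q z v ρ) [Finite C] {u : C} (hu : u * u = 1) (huQ : u ∉ Q) : FSGood True (SS ρ) := by
  refine good_of_index (sg ρ).ker ?_ ?_
  · exact (good_UU M hu huQ).of_equiv ((sg ρ).ker.equivMapOfInjective (SS ρ).subtype (SS ρ).subtype_injective).symm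
  · rw [Subgroup.index_ker]
    refine le_trans (Nat.card_le_card_of_injective (fun x : (sg ρ).range => (x : Multiplicative (ZMod 2)))
      Subtype.val_injective) ?_
    rw [Nat.card_eq_fintype_card]
    decide

/-! ### Elements of order three and five -/

theorem T3_dec : ∀ g ∈ J2Type.SPFacts.T3, ∃ i : Fin 3, ∃ w ∈ ({1, ⟨1, fun j => if j = 3 then 0 else 1⟩,
    ⟨1, fun j => if j = 4 then 0 else 1⟩, ⟨1, fun j => if j = 3 ∨ j = 4 then 1 else 0⟩} : Finset SP),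
    g = g3 ^ (i : ℕ) * w := by
  decide +kernel

theorem T5_dec : ∀ g ∈ J2Type.SPFacts.T5, ∃ i : Fin 5, g = g5 ^ (i : ℕ) := by
  decide +kernel

theorem v34 : (⟨1, fun j => if j = 3 then 0 else 1⟩ : SP) * ⟨1, fun j => if j = 4 then 0 else 1⟩ =
    ⟨1, fun j => if j = 3 ∨ j = 4 then 1 else 0⟩ := by
  decide +kernel

theorem d3_sq : d3 * d3 = 1 ∧ d3.σ ≠ 1 ∧ d3.σ 3 = 4 ∧ d3.σ 4 = 3 ∧ d3.s 3 = 0 ∧ d3.s 4 = 0 := by decide +kernel
theorem d5_sq : d5 * d5 = 1 ∧ d5.σ ≠ 1 := by decide +kernel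

/-- order three -/
theorem cover_three (M : IsModel Q z v ρ) [Finite C] {u : C} (hu : u * u = 1) (huQ : u ∉ Q) {c3 : C}
    (hc3 : ρ c3 = g3) (hc33 : c3 ^ 3 = 1) :
    ∃ Y : Subgroup C, c3 ∈ Y ∧ (∀ x, x * c3 * x⁻¹ = c3 ∨ x * c3 * x⁻¹ = c3⁻¹ → x ∈ Y) ∧ FSGood True Y := by
  obtain ⟨t, ht⟩ := (M.range d3).2 d3_E
  have htt : t * t = 1 := sq_of_rho_sq M hu huQ (by rw [ht]; exact d3_sq.1) (by rw [ht]; exact d3_sq.2.1)
  have ho : Odd (orderOf c3) := by
    have h1 : orderOf c3 ∣ 3 := orderOf_dvd_of_pow_eq_one hc33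
    rcases (Nat.dvd_prime Nat.prime_three).1 h1 with h | h <;> rw [h] <;> decide
  have htc : t * c3 * t⁻¹ = c3⁻¹ := by
    refine eq_of_odd M (n := 3) (by decide) ?_ ?_ ?_
    · rw [map_mul, map_mul, map_inv, map_inv, ht, hc3]; exact d3_inv
    · rw [conj_pow, hc33]; group
    · rw [inv_pow, hc33, inv_one]
  have htv : t * v 4 * t⁻¹ = v 3 := by
    rw [M.conj, ht, d3_sq.2.2.2.1, d3_sq.2.2.2.2.2, zp_zero, one_mul]
  set D : Subgroup C := closure ({t, v 4} : Set C) with hD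
  have tD : t ∈ D := subset_closure (by simp)
  have v4D : v 4 ∈ D := subset_closure (by simp)
  have v3D : v 3 ∈ D := by rw [← htv]; exact mul_mem (mul_mem tD v4D) (inv_mem tD)
  have zD : z ∈ D := by
    rw [← vv_sq M (show (3 : Fin 5) ≠ 4 by decide)]
    exact mul_mem (mul_mem v3D v4D) (mul_mem v3D v4D)
  have hzp : ∀ a : ZMod 2, zp z a ∈ D := fun a => zp_mem D z zD a
  -- elements commuting with `c3`
  have key : ∀ x, x * c3 = c3 * x → x ∈ zpowers c3 ⊔ D := by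
    intro x hx
    rw [comm_iff_odd M (n := 3) (by decide) hc33, hc3] at hx
    obtain ⟨i, w, hw, hg⟩ := T3_dec _ (cent_g3 _ (E M x).1 (E M x).2 hx)
    have hwl : ∃ y ∈ D, ρ y = w := by
      simp only [Finset.mem_insert, Finset.mem_singleton] at hw
      rcases hw with rfl | rfl | rfl | rfl
      · exact ⟨1, one_mem _, map_one ρ⟩
      · exact ⟨v 3, v3D, rho_v M 3⟩
      · exact ⟨v 4, v4D, rho_v M 4⟩
      · exact ⟨v 3 * v 4, mul_mem v3D v4D, by rw [map_mul, rho_v M, rho_v M]; exact v34⟩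
    obtain ⟨y, hy, hyw⟩ := hwl
    obtain ⟨a, ha⟩ := eq_of_rho_eq M (x := x) (y := c3 ^ (i : ℕ) * y) (by rw [hg, map_mul, map_pow, hc3, hyw])
    rw [ha]
    exact mul_mem ((le_sup_right : D ≤ zpowers c3 ⊔ D) (hzp a))
      (mul_mem ((le_sup_left : zpowers c3 ≤ zpowers c3 ⊔ D) (pow_mem (mem_zpowers c3) _))
        ((le_sup_right : D ≤ zpowers c3 ⊔ D) hy))
  have hDact : ∀ g ∈ D, g * c3 * g⁻¹ = c3 ∨ g * c3 * g⁻¹ = c3⁻¹ := by
    have hv4 : v 4 * c3 * (v 4)⁻¹ = c3 := by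
      have h1 : v 4 * c3 = c3 * v 4 := by
        rw [comm_iff_odd M (n := 3) (by decide) hc33, hc3, rho_v M]
        decide +kernel
      rw [h1, mul_inv_cancel_right]
    intro g hg
    refine closure_induction (p := fun g _ => g * c3 * g⁻¹ = c3 ∨ g * c3 * g⁻¹ = c3⁻¹) ?_ ?_ ?_ ?_ hg
    · rintro x (rfl | rfl)
      · exact Or.inr htc
      · exact Or.inl hv4
    · left; group
    · intro x y _ _ h1 h2
      have e : x * y * c3 * (x * y)⁻¹ = x * (y * c3 * y⁻¹) * x⁻¹ := by group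
      have e' : x * c3⁻¹ * x⁻¹ = (x * c3 * x⁻¹)⁻¹ := by group
      rw [e]
      rcases h2 with h2 | h2 <;> rw [h2]
      · exact h1
      · rw [e']
        rcases h1 with h1 | h1 <;> rw [h1]
        · exact Or.inr rfl
        · left; rw [inv_inv]
    · intro x _ h
      have e : x⁻¹ * (x * c3 * x⁻¹) * x⁻¹⁻¹ = c3 := by group
      rcases h with h | h
      · left; rwa [h] at e
      · right
        rw [h] at e
        have : (x⁻¹ * c3⁻¹ * x⁻¹⁻¹)⁻¹ = c3⁻¹ := by rw [e]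
        rw [← this]; group
  have hD2 : IsPGroup 2 D := by
    have hd : d3.σ * d3.σ = 1 := congrArg SP.σ d3_sq.1
    have h1 : ∀ x ∈ D, (ρ x).σ = 1 ∨ (ρ x).σ = d3.σ := by
      intro x hx
      refine closure_induction (p := fun x _ => (ρ x).σ = 1 ∨ (ρ x).σ = d3.σ) ?_ ?_ ?_ ?_ hx
      · rintro x (rfl | rfl)
        · right; rw [ht]
        · left; rw [rho_v M]
      · left; rw [map_one, one_σ]
      · intro x y _ _ h1 h2
        rw [map_mul, mul_σ]
        rcases h1 with h1 | h1 <;> rcases h2 with h2 | h2 <;> rw [h1, h2]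
        · left; exact mul_one 1
        · right; exact one_mul _
        · right; exact mul_one _
        · left; exact hd
      · intro x _ h
        rw [map_inv, inv_σ]
        rcases h with h | h <;> rw [h]
        · left; exact inv_one
        · right; exact inv_eq_of_mul_eq_one_left hd
    intro x
    refine ⟨3, Subtype.ext ?_⟩
    show (x : C) ^ (2 ^ 3) = 1
    have h2 : (x : C) * x ∈ Q := by
      rw [M.mem_Q, map_mul, mul_σ]
      rcases h1 x x.2 with h | h <;> rw [h]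
      · exact mul_one 1
      · exact hd
    have h3 := pow_four_Q M h2
    rw [← pow_two, ← pow_mul] at h3
    exact h3
  refine ⟨zpowers c3 ⊔ D, (le_sup_left : _ ≤ zpowers c3 ⊔ D) (mem_zpowers c3), ?_,
    good_sup ho D hD2 hDact (good_two htt (M.v_sq 4))⟩
  rintro x (hx | hx)
  · exact key x (mul_inv_eq_iff_eq_mul.1 hx)
  · have h1 : (t * x) * c3 = c3 * (t * x) := by
      apply mul_inv_eq_iff_eq_mul.1
      calc t * x * c3 * (t * x)⁻¹ = t * (x * c3 * x⁻¹) * t⁻¹ := by group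
        _ = (t * c3 * t⁻¹)⁻¹ := by rw [hx]; group
        _ = c3 := by rw [htc, inv_inv]
    have h2 := key _ h1
    have h3 : x = t⁻¹ * (t * x) := by group
    rw [h3]
    exact mul_mem (inv_mem ((le_sup_right : D ≤ zpowers c3 ⊔ D) tD)) h2

/-- order five -/
theorem five_comm (M : IsModel Q z v ρ) {c5 : C} (hc5 : ρ c5 = g5) (hc55 : c5 ^ 5 = 1) {x : C}
    (h : x * c5 = c5 * x) : ∃ (a : ZMod 2) (i : ℕ), x = zp z a * c5 ^ i := by
  rw [comm_iff_odd M (n := 5) (by decide) hc55, hc5] at h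
  obtain ⟨i, hg⟩ := T5_dec _ (cent_g5 _ (E M x).1 (E M x).2 h)
  obtain ⟨a, ha⟩ := eq_of_rho_eq M (x := x) (y := c5 ^ (i : ℕ)) (by rw [hg, map_pow, hc5])
  exact ⟨a, i, ha⟩

theorem sq_five (M : IsModel Q z v ρ) {u : C} (hu : u * u = 1) (huQ : u ∉ Q) {c5 : C}
    (hc5 : ρ c5 = g5) (hc55 : c5 ^ 5 = 1) {x : C} {n : ℕ} (hx : x ^ 2 ^ n = 1)
    (h : x * c5 * x⁻¹ = c5 ∨ x * c5 * x⁻¹ = c5⁻¹) : x * x = 1 := by
  rcases h with h | h
  · obtain ⟨a, i, rfl⟩ := five_comm M hc5 hc55 (mul_inv_eq_iff_eq_mul.1 h)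
    have h1 : (zp z a * c5 ^ i) ^ 10 = 1 := by
      have e : (zp z a * c5 ^ i) ^ 2 = c5 ^ i * c5 ^ i := by rw [pow_two]; exact sq_zp_mul M a _
      rw [show 10 = 2 * 5 by norm_num, pow_mul, e, ← pow_add, ← pow_mul, mul_comm, pow_mul, hc55, one_pow]
    have h2 : orderOf (zp z a * c5 ^ i) ∣ 2 ^ n := orderOf_dvd_of_pow_eq_one hx
    have h3 : orderOf (zp z a * c5 ^ i) ∣ 10 := orderOf_dvd_of_pow_eq_one h1
    have h4 : orderOf (zp z a * c5 ^ i) ∣ 2 := by
      have h5 : Nat.Coprime (orderOf (zp z a * c5 ^ i)) 5 :=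
        Nat.Coprime.coprime_dvd_left h2 (Nat.Coprime.pow_left n (by norm_num))
      exact h5.dvd_of_dvd_mul_right (by simpa using h3)
    rw [← pow_two]
    exact orderOf_dvd_iff_pow_eq_one.1 h4
  · obtain ⟨t, ht⟩ := (M.range d5).2 d5_E
    have htt : t * t = 1 := sq_of_rho_sq M hu huQ (by rw [ht]; exact d5_sq.1) (by rw [ht]; exact d5_sq.2)
    have hti : t⁻¹ = t := inv_eq_of_mul_eq_one_left htt
    have htc : t * c5 * t⁻¹ = c5⁻¹ := by
      refine eq_of_odd M (n := 5) (by decide) ?_ ?_ ?_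
      · rw [map_mul, map_mul, map_inv, map_inv, ht, hc5]; exact d5_inv
      · rw [conj_pow, hc55]; group
      · rw [inv_pow, hc55, inv_one]
    have h1 : (t * x) * c5 = c5 * (t * x) := by
      apply mul_inv_eq_iff_eq_mul.1
      calc t * x * c5 * (t * x)⁻¹ = t * (x * c5 * x⁻¹) * t⁻¹ := by group
        _ = (t * c5 * t⁻¹)⁻¹ := by rw [h]; group
        _ = c5 := by rw [htc, inv_inv]
    obtain ⟨a, i, hi⟩ := five_comm M hc5 hc55 h1
    have h2 : x = zp z a * (t * c5 ^ i) := by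
      calc x = t⁻¹ * (t * x) := by group
        _ = (t * zp z a) * c5 ^ i := by rw [hi, hti]; group
        _ = _ := by rw [zp_comm' M]; group
    rw [h2, sq_zp_mul M]
    calc t * c5 ^ i * (t * c5 ^ i) = (t * c5 ^ i * t⁻¹) * (t * t) * c5 ^ i := by group
      _ = 1 := by rw [← conj_pow, htc, htt, mul_one, inv_pow, inv_mul_cancel]

theorem perm_cases : ∀ σ : Equiv.Perm (Fin 5), Equiv.Perm.sign σ = 1 → σ = 1 ∨ σ * σ = 1 ∨ σ ^ 3 = 1 ∨ σ ^ 5 = 1 := by
  decide +kernel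

theorem rho_pow (x : C) (n : ℕ) : (ρ (x ^ n)).σ = (ρ x).σ ^ n := by
  induction n with
  | zero => simp [one_σ]
  | succ n ih => rw [pow_succ, map_mul, mul_σ, ih, pow_succ]

/-- elements of odd order -/
theorem odd_cases (M : IsModel Q z v ρ) {c : C} (hc : Odd (orderOf c)) :
    c = 1 ∨ orderOf c = 3 ∨ orderOf c = 5 := by
  have key : ∀ (k m : ℕ), c ^ (2 ^ k * m) = 1 → orderOf c ∣ m := fun k m h => by
    have h1 : Nat.Coprime (orderOf c) (2 ^ k) := Nat.Coprime.pow_right k (Nat.coprime_two_right.2 hc)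
    exact h1.dvd_of_dvd_mul_left (orderOf_dvd_of_pow_eq_one h)
  have h4 : ∀ m : ℕ, (ρ c).σ ^ m = 1 → c ^ (2 ^ 2 * m) = 1 := fun m h => by
    rw [mul_comm, pow_mul]
    exact pow_four_Q M ((M.mem_Q _).2 (by rw [rho_pow, h]))
  rcases perm_cases _ (E M c).1 with h | h | h | h
  · have := key 2 1 (h4 1 (by rw [pow_one, h]))
    exact Or.inl (orderOf_eq_one_iff.1 (Nat.dvd_one.1 this))
  · have := key 3 1 (by
      have := h4 2 (by rw [pow_two, h])
      rwa [show 2 ^ 2 * 2 = 2 ^ 3 * 1 by norm_num] at this)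
    exact Or.inl (orderOf_eq_one_iff.1 (Nat.dvd_one.1 this))
  · rcases (Nat.dvd_prime Nat.prime_three).1 (key 2 3 (h4 3 h)) with h1 | h1
    · exact Or.inl (orderOf_eq_one_iff.1 h1)
    · exact Or.inr (Or.inl h1)
  · rcases (Nat.dvd_prime (by norm_num : Nat.Prime 5)).1 (key 2 5 (h4 5 h)) with h1 | h1
    · exact Or.inl (orderOf_eq_one_iff.1 h1)
    · exact Or.inr (Or.inr h1)

theorem act_conj {c x : C} (k : C) (h : x * c * x⁻¹ = c ∨ x * c * x⁻¹ = c⁻¹) :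
    (k * x * k⁻¹) * (k * c * k⁻¹) * (k * x * k⁻¹)⁻¹ = k * c * k⁻¹ ∨
    (k * x * k⁻¹) * (k * c * k⁻¹) * (k * x * k⁻¹)⁻¹ = (k * c * k⁻¹)⁻¹ := by
  have e : (k * x * k⁻¹) * (k * c * k⁻¹) * (k * x * k⁻¹)⁻¹ = k * (x * c * x⁻¹) * k⁻¹ := by group
  rw [e]
  rcases h with h | h <;> rw [h]
  · exact Or.inl rfl
  · right; group

/-- **the centraliser of a 2-central involution of `J₂`** -/
theorem good_C (M : IsModel Q z v ρ) [Finite C] (hcard : Nat.card C = 1920) {u : C} (hu : u * u = 1) (huQ : u ∉ Q) :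
    FSGood True C := by
  refine fsGood_of_cover fun c hc P hP hcP => ?_
  rcases odd_cases M hc with rfl | h3 | h5
  · have hi : Odd (SS ρ).index := by
      have h1 := (SS ρ).card_mul_index
      rw [card_SS M, hcard] at h1
      have h2 : (SS ρ).index = 15 := by omega
      rw [h2]; decide
    obtain ⟨k, hk⟩ := exists_conj_mem (isPGroup_SS M) hi hP
    exact cover_conj k ⟨SS ρ, by rw [mul_one, mul_inv_cancel]; exact one_mem _, hk, good_SS M hu huQ⟩
  · obtain ⟨c3, hc3, hc33⟩ := exists_odd_lift M (n := 3) (by decide) g3_E g3_pow3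
    obtain ⟨k, hk⟩ := conj_three M hcard h3 hc3 hc33
    obtain ⟨Y, h1, h2, hY⟩ := cover_three M hu huQ hc3 hc33
    refine cover_conj k ⟨Y, by rw [hk]; exact h1, fun x hx => h2 _ ?_, hY⟩
    have h4 := act_conj k (hcP x hx)
    rw [hk] at h4
    exact h4
  · obtain ⟨c5, hc5, hc55⟩ := exists_odd_lift M (n := 5) (by decide) g5_E g5_pow5
    obtain ⟨k, hk⟩ := conj_five M hcard h5 hc5 hc55
    refine ⟨zpowers c ⊔ P, (le_sup_left : _ ≤ zpowers c ⊔ P) (mem_zpowers c), le_sup_right,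
      good_sup hc P hP hcP (good_of_sq fun x => Subtype.ext ?_)⟩
    show (x : C) * x = 1
    obtain ⟨n, hn⟩ := hP x
    have hn' : (x : C) ^ 2 ^ n = 1 := congrArg Subtype.val hn
    have h4 := act_conj k (hcP x x.2)
    have h6 : (k * x * k⁻¹) * c5 * (k * x * k⁻¹)⁻¹ = c5 ∨ (k * x * k⁻¹) * c5 * (k * x * k⁻¹)⁻¹ = c5⁻¹ := by
      rcases hk with hk | hk
      · rw [hk] at h4; exact h4
      · rw [hk] at h4
        have h7 : (c5 ^ 2) ^ 3 = c5 := by
          rw [← pow_mul, show 2 * 3 = 5 + 1 by norm_num, pow_succ, hc55, one_mul]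
        have h8 : (k * x * k⁻¹) * c5 * (k * x * k⁻¹)⁻¹ = ((k * x * k⁻¹) * c5 ^ 2 * (k * x * k⁻¹)⁻¹) ^ 3 := by
          rw [conj_pow, h7]
        rw [h8]
        rcases h4 with h4 | h4 <;> rw [h4]
        · exact Or.inl h7
        · right; rw [inv_pow, h7]
    have h7 := sq_five M hu huQ hc5 hc55 (x := k * x * k⁻¹) (n := n) (by rw [conj_pow, hn']; group) h6
    exact (conj_sq_iff k (x : C)).1 h7

end

end Cfsg.Agent.H999.FR.JTwoC
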