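import Cfsg.Agent.H721.FR.Base
import Cfsg.Agent.H592.FSAdapt
import Cfsg.Agent.H621.SymDeg.Chars

/-!
# Frobenius-Schur indicators: restriction to good subgroups (helper999, for S4970)

* `four_le` : if `ν(χ) = -1` and all indicators of `P` are one then `∑_{x ∈ P} |χ(x)|² ≥ 4|P|`;
* `good_of_index` : `FSGood False N`, `|G : N| ≤ 3` ⇒ `FSGood True G`;
* `good_sup` : `c` of odd order, `P` a 2-group centralising or inverting `c`, `FSGood False P` ⇒ `FSGood True (⟨c⟩P)`;
* `good_of_sq` : elementary abelian 2-groups; `good_dihedral` : `A:⟨t⟩`, `A` abelian, inverted by involutions.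
-/

set_option autoImplicit false

universe u

namespace Cfsg.Agent.H999.FR

open Cfsg Cfsg.Agent.H955.FS Cfsg.Agent.Characters.Core Cfsg.Agent.Characters.Central
open scoped ComplexConjugate

theorem sum_normSq {K : Type*} [Group K] [Fintype K] {χ : K → ℂ} (hχ : IsIrrCharacter K χ) :
    ∑ g, Complex.normSq (χ g) = Nat.card K := by
  have h := classInner_irr_self hχ
  rw [classInner_self_eq_ofReal] at h
  have h1 : (Nat.card K : ℝ)⁻¹ * ∑ g, Complex.normSq (χ g) = 1 := by exact_mod_cast h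
  have h2 : (Nat.card K : ℝ) ≠ 0 := Nat.cast_ne_zero.2 Nat.card_pos.ne'
  field_simp at h1
  exact h1

theorem sum_normSq_ge {P : Type*} [Group P] [Fintype P] {α : P → ℂ} (hα : IsCharacter P α) (hne : α 1 ≠ 0) :
    (Nat.card P : ℝ) ≤ ∑ g, Complex.normSq (α g) := by
  obtain ⟨n, hn⟩ := classInner_isNat hα hα
  rw [classInner_self_eq_ofReal] at hn
  have h1 : (Nat.card P : ℝ)⁻¹ * ∑ g, Complex.normSq (α g) = n := by exact_mod_cast hn
  have h2 : (0 : ℝ) < Nat.card P := Nat.cast_pos.2 Nat.card_pos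
  have h3 : ∑ g, Complex.normSq (α g) = Nat.card P * n := by
    field_simp at h1
    linarith
  have h4 : 1 ≤ n := by
    rcases Nat.eq_zero_or_pos n with h | h
    · exfalso
      rw [h, Nat.cast_zero, mul_zero, Finset.sum_eq_zero_iff_of_nonneg (fun _ _ => Complex.normSq_nonneg _)] at h3
      exact hne (Complex.normSq_eq_zero.1 (h3 1 (Finset.mem_univ _)))
    · exact h
  rw [h3]
  have h5 : (1 : ℝ) ≤ n := by exact_mod_cast h4
  nlinarith

/-- **restriction to a subgroup with all indicators one** -/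
theorem four_le {G : Type u} [Group G] [Finite G] {χ : G → ℂ} (hχ : IsIrrCharacter G χ) (hν : fsi χ = -1)
    (P : Subgroup G) [Fintype P] (hP : FSGood False P) :
    4 * (Nat.card P : ℝ) ≤ ∑ x : P, Complex.normSq (χ x) := by
  obtain ⟨α, hα, h⟩ := Cfsg.Agent.H592.FSPar.exists_half hχ hν P (hP.mono fun h => h.elim)
  have hre : ∀ x : P, conj (α x) = α x := by
    intro x
    rw [← isCharacter_apply_inv hα x]
    obtain ⟨k, hk⟩ := isConj_iff.1 (hP.isConj_inv x)
    rw [← hk]
    exact (isCharacter_isClassFunction hα) x k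
  have h2 : ∀ x : P, χ x = 2 * α x := by
    intro x
    rw [h x, hre x]
    ring
  have h1 : α 1 ≠ 0 := by
    intro h0
    have h3 := h2 1
    rw [h0, mul_zero] at h3
    exact isIrr_apply_one_ne_zero hχ h3
  have h4 := sum_normSq_ge hα h1
  calc 4 * (Nat.card P : ℝ) ≤ 4 * ∑ x, Complex.normSq (α x) := by linarith
    _ = ∑ x : P, Complex.normSq (χ x) := by
      rw [Finset.mul_sum]
      refine Finset.sum_congr rfl fun x _ => ?_
      rw [h2 x, Complex.normSq_mul]
      norm_num [Complex.normSq_apply]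

theorem good_of_not {G : Type u} [Group G] [Finite G]
    (h : ∀ χ : G → ℂ, IsIrrCharacter G χ → fsi χ ≠ -1) : FSGood True G := by
  intro χ hχ
  rcases fsi_cases hχ with h1 | h1 | h1
  · exact Or.inr ⟨trivial, h1⟩
  · exact Or.inl h1
  · exact absurd h1 (h χ hχ)

theorem sum_comp_le {A B : Type*} [Fintype A] [Fintype B] (f : A → B) (hf : Function.Injective f) (F : B → ℝ)
    (hF : ∀ b, 0 ≤ F b) : ∑ a, F (f a) ≤ ∑ b, F b := by
  classical
  have h := Finset.sum_map Finset.univ (⟨f, hf⟩ : A ↪ B) F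
  calc ∑ a, F (f a) = ∑ b ∈ Finset.univ.map (⟨f, hf⟩ : A ↪ B), F b := h.symm
    _ ≤ ∑ b, F b := Finset.sum_le_sum_of_subset_of_nonneg (Finset.subset_univ _) fun b _ _ => hF b

/-- **A subgroup of index at most three with all indicators one.** -/
theorem good_of_index {G : Type u} [Group G] [Finite G] (N : Subgroup G) (hN : FSGood False N) (hi : N.index ≤ 3) :
    FSGood True G := by
  classical
  refine good_of_not fun χ hχ hν => ?_
  have := Fintype.ofFinite G
  have := Fintype.ofFinite N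
  have h1 := four_le hχ hν N hN
  have h2 := sum_normSq hχ
  have h3 : ∑ x : N, Complex.normSq (χ x) ≤ ∑ g, Complex.normSq (χ g) :=
    sum_comp_le (fun x : N => (x : G)) Subtype.val_injective (fun g => Complex.normSq (χ g))
      fun _ => Complex.normSq_nonneg _
  have h4 : (Nat.card G : ℝ) = Nat.card N * N.index := by exact_mod_cast (N.card_mul_index).symm
  have h5 : (N.index : ℝ) ≤ 3 := by exact_mod_cast hi
  have h6 : (0 : ℝ) < Nat.card N := Nat.cast_pos.2 Nat.card_pos
  nlinarith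

section pm

variable {K : Type u} [Group K] [Fintype K] {χ : K → ℂ}

/-- the class sum of `{y, y⁻¹}` acts as a scalar -/
theorem scalar (hχ : IsIrrCharacter K χ) {y : K} (hy : ∀ k, k * y * k⁻¹ = y ∨ k * y * k⁻¹ = y⁻¹) (g : K) :
    χ 1 * (χ (y * g) + χ (y⁻¹ * g)) = (χ y + χ y⁻¹) * χ g := by
  have h1 := sum_char_conj_mul hχ y g
  have h2 := sum_char_conj_mul hχ y⁻¹ g
  have h3 : ∑ a, (χ (a * y * a⁻¹ * g) + χ (a * y⁻¹ * a⁻¹ * g)) = (Nat.card K : ℂ) * (χ (y * g) + χ (y⁻¹ * g)) := by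
    rw [Finset.sum_congr rfl (g := fun _ => χ (y * g) + χ (y⁻¹ * g)) fun a _ => ?_, Finset.sum_const,
      Finset.card_univ, nsmul_eq_mul, Nat.card_eq_fintype_card]
    have e : a * y⁻¹ * a⁻¹ = (a * y * a⁻¹)⁻¹ := by group
    rw [e]
    rcases hy a with h | h
    · rw [h]
    · rw [h, inv_inv, add_comm]
  rw [Finset.sum_add_distrib, h1, h2] at h3
  have h4 : χ 1 ≠ 0 := isIrr_apply_one_ne_zero hχ
  have h5 : (Nat.card K : ℂ) ≠ 0 := card_ne_zero_complex
  field_simp at h3
  linear_combination -h3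

theorem key (hχ : IsIrrCharacter K χ) {c : K} (hc : Odd (orderOf c))
    (hpm : ∀ k, k * c * k⁻¹ = c ∨ k * c * k⁻¹ = c⁻¹) [Fintype (Subgroup.zpowers c)] (x : K) :
    (Nat.card (Subgroup.zpowers c) : ℝ) * Complex.normSq (χ x) ≤
      2 * ∑ a : Subgroup.zpowers c, Complex.normSq (χ (a * x)) := by
  classical
  obtain ⟨d, hd, hd1⟩ := isIrr_apply_one hχ
  have hdr : (0 : ℝ) < d := Nat.cast_pos.2 hd
  have hpm' : ∀ a : Subgroup.zpowers c, ∀ k, k * (a : K) * k⁻¹ = a ∨ k * (a : K) * k⁻¹ = (a : K)⁻¹ := by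
    rintro ⟨_, i, rfl⟩ k
    show k * c ^ i * k⁻¹ = c ^ i ∨ k * c ^ i * k⁻¹ = (c ^ i)⁻¹
    rw [← conj_zpow]
    rcases hpm k with h | h
    · left; rw [h]
    · right; rw [h, inv_zpow]
  have hinv : ∀ y, χ y⁻¹ = conj (χ y) := isCharacter_apply_inv (isIrr_isCharacter hχ)
  -- the real number `T a = χ(a) + χ(a⁻¹)`
  let T : Subgroup.zpowers c → ℝ := fun a => 2 * (χ a).re
  have hT : ∀ a : Subgroup.zpowers c, χ a + χ (a : K)⁻¹ = (T a : ℂ) := by
    intro a
    rw [hinv, Complex.add_conj]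
  have hZ : ∀ (a : Subgroup.zpowers c) (g : K), (d : ℂ) * (χ (a * g) + χ ((a : K)⁻¹ * g)) = (T a : ℂ) * χ g := by
    intro a g
    rw [← hd1, ← hT]
    exact scalar hχ (hpm' a) g
  -- squares
  have hsq : ∀ a : Subgroup.zpowers c, T a ^ 2 = d * (T (a * a) + 2 * d) := by
    intro a
    have h1 := hZ a a
    rw [inv_mul_cancel, hd1] at h1
    have h2 := congrArg Complex.re h1
    rw [Complex.re_ofReal_mul] at h2
    have h3 : ((d : ℂ) * (χ ((a : K) * a) + d)).re = d * ((χ ((a : K) * a)).re + d) := by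
      have : ((d : ℂ)) = ((d : ℝ) : ℂ) := by norm_num
      rw [this, Complex.re_ofReal_mul, Complex.add_re, Complex.ofReal_re]
    rw [h3] at h2
    show (2 * (χ a).re) ^ 2 = d * (2 * (χ ((a * a : Subgroup.zpowers c) : K)).re + 2 * d)
    have h4 : ((a * a : Subgroup.zpowers c) : K) = (a : K) * a := rfl
    rw [h4]
    have h5 : T a = 2 * (χ a).re := rfl
    rw [h5] at h2
    linarith
  -- the sum over `A` is nonnegative
  have hnn : 0 ≤ ∑ a, T a := by
    have hA : IsCharacter (Subgroup.zpowers c) (fun a => χ a) :=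
      isCharacter_comp (Subgroup.zpowers c).subtype (isIrr_isCharacter hχ)
    obtain ⟨n, hn⟩ := classInner_isNat hA isCharacter_one
    rw [classInner_def] at hn
    have h1 : ∑ a : Subgroup.zpowers c, χ a = (Nat.card (Subgroup.zpowers c) : ℂ) * n := by
      have h2 : (Nat.card (Subgroup.zpowers c) : ℂ) ≠ 0 := card_ne_zero_complex
      rw [← hn, mul_inv_cancel_left₀ h2]
      refine Finset.sum_congr rfl fun a _ => ?_
      show χ a = χ a * conj (1 : ℂ)
      rw [map_one, mul_one]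
    have h2 : ∑ a, T a = 2 * (∑ a : Subgroup.zpowers c, χ a).re := by
      rw [Complex.re_sum, Finset.mul_sum]
    rw [h2, h1]
    have h3 : ((Nat.card (Subgroup.zpowers c) : ℂ) * n).re = (Nat.card (Subgroup.zpowers c) : ℝ) * n := by
      have : ((Nat.card (Subgroup.zpowers c) : ℂ) * n) = (((Nat.card (Subgroup.zpowers c) : ℝ) * n : ℝ) : ℂ) := by
        push_cast; rfl
      rw [this, Complex.ofReal_re]
    rw [h3]
    positivity
  have hbij : Function.Bijective (fun a : Subgroup.zpowers c => a * a) := by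
    have hcard : Odd (Nat.card (Subgroup.zpowers c)) := by rwa [Nat.card_zpowers]
    have hcop : (Nat.card (Subgroup.zpowers c)).Coprime 2 := Nat.coprime_two_right.2 hcard
    have h1 := (powCoprime hcop).bijective
    have e : (fun a : Subgroup.zpowers c => a * a) = fun a => powCoprime hcop a := by
      funext a
      rw [powCoprime_apply, pow_two]
    rw [e]
    exact h1
  have hsum : ∑ a, T (a * a) = ∑ a, T a :=
    Fintype.sum_bijective _ hbij _ _ fun _ => rfl
  have hT2 : 2 * (d : ℝ) ^ 2 * Nat.card (Subgroup.zpowers c) ≤ ∑ a, T a ^ 2 := by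
    have h1 : ∑ a, T a ^ 2 = d * ∑ a, T a + 2 * d ^ 2 * Nat.card (Subgroup.zpowers c) := by
      rw [Finset.sum_congr rfl fun a _ => hsq a, ← Finset.mul_sum, Finset.sum_add_distrib, hsum, Finset.sum_const,
        Finset.card_univ, nsmul_eq_mul, Nat.card_eq_fintype_card]
      ring
    rw [h1]
    have : 0 ≤ d * ∑ a, T a := mul_nonneg hdr.le hnn
    linarith
  have hle : ∀ a : Subgroup.zpowers c, T a ^ 2 * Complex.normSq (χ x) ≤
      2 * d ^ 2 * (Complex.normSq (χ (a * x)) + Complex.normSq (χ ((a : K)⁻¹ * x))) := by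
    intro a
    have h1 := congrArg Complex.normSq (hZ a x)
    rw [Complex.normSq_mul, Complex.normSq_mul, Complex.normSq_natCast, Complex.normSq_ofReal] at h1
    have h2 : Complex.normSq (χ (a * x) + χ ((a : K)⁻¹ * x)) ≤
        2 * (Complex.normSq (χ (a * x)) + Complex.normSq (χ ((a : K)⁻¹ * x))) := by
      simp only [Complex.normSq_apply, Complex.add_re, Complex.add_im]
      nlinarith [sq_nonneg ((χ (a * x)).re - (χ ((a : K)⁻¹ * x)).re),
        sq_nonneg ((χ (a * x)).im - (χ ((a : K)⁻¹ * x)).im)]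
    have h3 : T a ^ 2 = T a * T a := pow_two _
    rw [h3, ← h1]
    have h4 : (0 : ℝ) ≤ (d : ℝ) * d := by positivity
    nlinarith
  have hinvs : ∑ a : Subgroup.zpowers c, Complex.normSq (χ ((a : K)⁻¹ * x)) =
      ∑ a : Subgroup.zpowers c, Complex.normSq (χ (a * x)) :=
    Fintype.sum_equiv (Equiv.inv _) _ _ fun a => rfl
  have h1 : (∑ a, T a ^ 2) * Complex.normSq (χ x) ≤
      2 * d ^ 2 * (2 * ∑ a : Subgroup.zpowers c, Complex.normSq (χ (a * x))) := by
    rw [Finset.sum_mul, two_mul (∑ a : Subgroup.zpowers c, Complex.normSq (χ (a * x)))]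
    nth_rw 2 [← hinvs]
    rw [← Finset.sum_add_distrib, Finset.mul_sum]
    exact Finset.sum_le_sum fun a _ => hle a
  have h2 : 2 * (d : ℝ) ^ 2 * Nat.card (Subgroup.zpowers c) * Complex.normSq (χ x) ≤
      (∑ a, T a ^ 2) * Complex.normSq (χ x) := mul_le_mul_of_nonneg_right hT2 (Complex.normSq_nonneg _)
  have h3 : 2 * (d : ℝ) ^ 2 * (Nat.card (Subgroup.zpowers c) * Complex.normSq (χ x)) ≤
      2 * (d : ℝ) ^ 2 * (2 * ∑ a : Subgroup.zpowers c, Complex.normSq (χ (a * x))) := by linarith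
  exact le_of_mul_le_mul_left h3 (by positivity)

end pm

/-- the product map `A × P → K` -/
theorem good_of_pm {K : Type u} [Group K] [Finite K] {c : K} (hc : Odd (orderOf c))
    (hpm : ∀ k, k * c * k⁻¹ = c ∨ k * c * k⁻¹ = c⁻¹) (P : Subgroup K)
    (hdisj : ∀ x ∈ Subgroup.zpowers c, x ∈ P → x = 1) (hcov : ∀ k : K, ∃ a ∈ Subgroup.zpowers c, ∃ x ∈ P, k = a * x)
    (hP : FSGood False P) : FSGood True K := by
  classical
  refine good_of_not fun χ hχ hν => ?_
  have := Fintype.ofFinite K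
  have := Fintype.ofFinite P
  have := Fintype.ofFinite (Subgroup.zpowers c)
  have hbij : Function.Bijective (fun y : Subgroup.zpowers c × P => (y.1 : K) * y.2) := by
    constructor
    · rintro ⟨a, x⟩ ⟨b, y⟩ h
      have h' : (a : K) * x = b * y := h
      have h1 : (b : K)⁻¹ * a = y * (x : K)⁻¹ := by
        rw [inv_mul_eq_iff_eq_mul, ← mul_assoc, eq_mul_inv_iff_mul_eq, h']
      have h2 := hdisj ((b : K)⁻¹ * a) (mul_mem (inv_mem b.2) a.2) (by rw [h1]; exact mul_mem y.2 (inv_mem x.2))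
      have h3 : (a : K) = b := (inv_mul_eq_one.1 h2).symm
      have h4 : (x : K) = y := by
        rw [h3] at h'
        exact mul_left_cancel h'
      exact Prod.ext (Subtype.ext h3) (Subtype.ext h4)
    · intro k
      obtain ⟨a, ha, x, hx, rfl⟩ := hcov k
      exact ⟨(⟨a, ha⟩, ⟨x, hx⟩), rfl⟩
  have hcard : Nat.card K = Nat.card (Subgroup.zpowers c) * Nat.card P := by
    rw [← Nat.card_prod]
    exact (Nat.card_congr (Equiv.ofBijective _ hbij)).symm
  have h1 := four_le hχ hν P hP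
  have h2 := sum_normSq hχ
  have h3 : ∑ g, Complex.normSq (χ g) = ∑ x : P, ∑ a : Subgroup.zpowers c, Complex.normSq (χ (a * x)) := by
    rw [← Fintype.sum_bijective _ hbij (fun y => Complex.normSq (χ ((y.1 : K) * y.2))) _ fun _ => rfl,
      Fintype.sum_prod_type_right]
  have h4 : (Nat.card (Subgroup.zpowers c) : ℝ) * ∑ x : P, Complex.normSq (χ x) ≤
      2 * ∑ g, Complex.normSq (χ g) := by
    rw [h3, Finset.mul_sum, Finset.mul_sum]
    exact Finset.sum_le_sum fun x _ => key hχ hc hpm x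
  have h5 : (0 : ℝ) < Nat.card (Subgroup.zpowers c) := Nat.cast_pos.2 Nat.card_pos
  have h6 : (0 : ℝ) < Nat.card P := Nat.cast_pos.2 Nat.card_pos
  rw [h2, hcard] at h4
  push_cast at h4
  have h7 : (Nat.card (Subgroup.zpowers c) : ℝ) * (4 * (Nat.card P : ℝ)) ≤
      Nat.card (Subgroup.zpowers c) * ∑ x : P, Complex.normSq (χ x) := mul_le_mul_of_nonneg_left h1 h5.le
  have h8 : (0 : ℝ) < Nat.card (Subgroup.zpowers c) * Nat.card P := mul_pos h5 h6
  nlinarith

/-- **`⟨c⟩P` for a 2-group `P` centralising or inverting `c`, with all indicators one.** -/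
theorem good_sup {G : Type u} [Group G] [Finite G] {c : G} (hc : Odd (orderOf c)) (P : Subgroup G) (h2 : IsPGroup 2 P)
    (hact : ∀ g ∈ P, g * c * g⁻¹ = c ∨ g * c * g⁻¹ = c⁻¹) (hP : FSGood False P) :
    FSGood True ↥(Subgroup.zpowers c ⊔ P) := by
  -- elements of `⟨c⟩P` centralise or invert `c`
  have hA : ∀ x ∈ P, ∀ a ∈ Subgroup.zpowers c, x * a * x⁻¹ ∈ Subgroup.zpowers c := by
    rintro x hx _ ⟨i, rfl⟩
    show x * c ^ i * x⁻¹ ∈ _
    rw [← conj_zpow]
    rcases hact x hx with h | h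
    · rw [h]; exact zpow_mem (Subgroup.mem_zpowers c) i
    · rw [h]; exact zpow_mem (inv_mem (Subgroup.mem_zpowers c)) i
  have hcov : ∀ k ∈ Subgroup.zpowers c ⊔ P, ∃ a ∈ Subgroup.zpowers c, ∃ x ∈ P, k = a * x := by
    let S : Subgroup G :=
      { carrier := {k | ∃ a ∈ Subgroup.zpowers c, ∃ x ∈ P, k = a * x}
        one_mem' := ⟨1, one_mem _, 1, one_mem _, (one_mul 1).symm⟩
        mul_mem' := by
          rintro _ _ ⟨a, ha, x, hx, rfl⟩ ⟨b, hb, y, hy, rfl⟩
          exact ⟨a * (x * b * x⁻¹), mul_mem ha (hA x hx b hb), x * y, mul_mem hx hy, by group⟩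
        inv_mem' := by
          rintro _ ⟨a, ha, x, hx, rfl⟩
          refine ⟨x⁻¹ * a⁻¹ * x⁻¹⁻¹, hA _ (inv_mem hx) _ (inv_mem ha), x⁻¹, inv_mem hx, by group⟩ }
    have hle : Subgroup.zpowers c ⊔ P ≤ S := by
      refine sup_le ?_ ?_
      · intro a ha
        exact ⟨a, ha, 1, one_mem _, (mul_one a).symm⟩
      · intro x hx
        exact ⟨1, one_mem _, x, hx, (one_mul x).symm⟩
    intro k hk
    exact hle hk
  have hcmem : c ∈ Subgroup.zpowers c ⊔ P := (le_sup_left : _ ≤ Subgroup.zpowers c ⊔ P) (Subgroup.mem_zpowers c)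
  have hPle : P ≤ Subgroup.zpowers c ⊔ P := le_sup_right
  set Y := Subgroup.zpowers c ⊔ P with hY
  have hzp : ∀ y : Y, y ∈ Subgroup.zpowers (⟨c, hcmem⟩ : Y) ↔ (y : G) ∈ Subgroup.zpowers c := by
    intro y
    rw [Subgroup.mem_zpowers_iff, Subgroup.mem_zpowers_iff]
    constructor
    · rintro ⟨k, hk⟩
      exact ⟨k, congrArg Subtype.val hk⟩
    · rintro ⟨k, hk⟩
      exact ⟨k, Subtype.ext hk⟩
  refine good_of_pm (c := (⟨c, hcmem⟩ : Y)) (by rwa [Subgroup.orderOf_mk]) ?_ (P.subgroupOf Y) ?_ ?_ ?_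
  · rintro ⟨k, hk⟩
    obtain ⟨a, ⟨i, hi⟩, x, hx, rfl⟩ := hcov k hk
    have hi' : c ^ i = a := hi
    have hcc : ∀ g : G, x * c * x⁻¹ = g → (g = c ∨ g = c⁻¹) → (a * x) * c * (a * x)⁻¹ = g := by
      intro g hg hg2
      have e : (a * x) * c * (a * x)⁻¹ = a * (x * c * x⁻¹) * a⁻¹ := by group
      rw [e, hg, ← hi']
      have hcomm : Commute (c ^ i) g := by
        rcases hg2 with rfl | rfl
        · exact (Commute.refl _).zpow_left i
        · exact ((Commute.refl c).inv_right).zpow_left i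
      rw [hcomm.eq, mul_inv_cancel_right]
    rcases hact x hx with h | h
    · left
      exact Subtype.ext (hcc c h (Or.inl rfl))
    · right
      exact Subtype.ext (hcc c⁻¹ h (Or.inr rfl))
  · rintro ⟨x, hx⟩ h1 h3
    apply Subtype.ext
    show x = 1
    have h4 : x ∈ Subgroup.zpowers c := (hzp _).1 h1
    have h5 : x ∈ P := Subgroup.mem_subgroupOf.1 h3
    have h6 : orderOf x ∣ orderOf c := by
      rw [← Nat.card_zpowers, ← Nat.card_zpowers]
      exact Subgroup.card_dvd_of_le ((Subgroup.zpowers_le).2 h4)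
    obtain ⟨k, hk⟩ := h2 ⟨x, h5⟩
    have h7 : x ^ 2 ^ k = 1 := congrArg Subtype.val hk
    have h8 := orderOf_dvd_of_pow_eq_one h7
    have h9 : (orderOf x).Coprime (2 ^ k) := Nat.Coprime.pow_right k (Nat.coprime_two_right.2 (hc.of_dvd_nat h6))
    exact orderOf_eq_one_iff.1 (Nat.eq_one_of_dvd_coprimes h9 dvd_rfl h8)
  · rintro ⟨k, hk⟩
    obtain ⟨a, ha, x, hx, rfl⟩ := hcov k hk
    exact ⟨⟨a, (le_sup_left : _ ≤ Y) ha⟩, (hzp _).2 ha, ⟨x, hPle hx⟩, Subgroup.mem_subgroupOf.2 hx, rfl⟩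
  · exact hP.of_equiv (Subgroup.subgroupOfEquivOfLe hPle).symm

/-- elementary abelian `2`-groups -/
theorem good_of_sq {G : Type u} [Group G] [Finite G] (h : ∀ g : G, g * g = 1) : FSGood False G := by
  have hinv : ∀ g : G, g⁻¹ = g := fun g => inv_eq_of_mul_eq_one_left (h g)
  refine FSGood.of_isConj_inv (good_of_not fun χ hχ hν => ?_) fun g => by rw [hinv]
  have := Fintype.ofFinite G
  obtain ⟨d, hd, hd1⟩ := isIrr_apply_one hχ
  have h1 : fsi χ = χ 1 := by
    unfold fsi
    rw [finsum_eq_sum_of_fintype, Finset.sum_congr rfl (g := fun _ => χ 1) fun g _ => by rw [h g], Finset.sum_const,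
      Finset.card_univ, nsmul_eq_mul, ← Nat.card_eq_fintype_card, inv_mul_cancel_left₀ card_ne_zero_complex]
  rw [h1, hd1] at hν
  have h2 := congrArg Complex.re hν
  simp only [Complex.natCast_re, Complex.neg_re, Complex.one_re] at h2
  have h3 : (0 : ℝ) < d := Nat.cast_pos.2 hd
  linarith

/-- **generalised dihedral groups** -/
theorem good_dihedral {G : Type u} [Group G] [Finite G] (A : Subgroup G) (hA : ∀ a ∈ A, ∀ b ∈ A, a * b = b * a)
    (hi : A.index = 2) (ht : ∀ t : G, t ∉ A → t * t = 1) : FSGood False G := by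
  classical
  have hne : A ≠ ⊤ := by
    intro h
    rw [h, Subgroup.index_top] at hi
    omega
  obtain ⟨t₀, ht₀⟩ : ∃ t : G, t ∉ A := by
    by_contra hcon
    push Not at hcon
    exact hne (Subgroup.eq_top_iff' A |>.2 hcon)
  have hreal : ∀ g : G, IsConj g g⁻¹ := by
    intro g
    by_cases hg : g ∈ A
    · have h1 : t₀ * g ∉ A := fun h => ht₀ (by
        have := mul_mem h (inv_mem hg)
        rwa [mul_inv_cancel_right] at this)
      have h2 := ht _ h1
      have h3 := ht _ ht₀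
      refine isConj_iff.2 ⟨t₀, ?_⟩
      have h4 : t₀⁻¹ = t₀ := inv_eq_of_mul_eq_one_left h3
      rw [h4]
      have h5 : t₀ * g * t₀ * g = 1 := by rw [← h2]; group
      exact eq_inv_of_mul_eq_one_left h5
    · have h1 : g⁻¹ = g := inv_eq_of_mul_eq_one_left (ht g hg)
      rw [h1]
  refine FSGood.of_isConj_inv (good_of_not fun χ hχ hν => ?_) hreal
  have := Fintype.ofFinite G
  obtain ⟨d, hd, hd1⟩ := isIrr_apply_one hχ
  have hd2 : d ≤ 2 := by
    have := Cfsg.Agent.H621.SymDeg.degree_le_of_comm hχ A hA hd1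
    omega
  have hd2' : (d : ℝ) ≤ 2 := by exact_mod_cast hd2
  have hd0 : (0 : ℝ) < d := Nat.cast_pos.2 hd
  have hfour : ∀ t : G, t ∉ A → 4 ≤ Complex.normSq (χ t) := by
    intro t htA
    have h1 := ht t htA
    have ht1 : t ≠ 1 := fun h => htA (h ▸ one_mem A)
    have hP : ∀ x ∈ Subgroup.zpowers t, x = 1 ∨ x = t := by
      rintro _ ⟨i, rfl⟩
      show t ^ i = 1 ∨ t ^ i = t
      rcases Int.even_or_odd' i with ⟨k, rfl | rfl⟩
      · left
        rw [zpow_mul]
        have : t ^ (2 : ℤ) = 1 := by rw [zpow_ofNat, pow_two, h1]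
        rw [this, one_zpow]
      · right
        rw [zpow_add, zpow_mul, zpow_one]
        have : t ^ (2 : ℤ) = 1 := by rw [zpow_ofNat, pow_two, h1]
        rw [this, one_zpow, one_mul]
    have := Fintype.ofFinite (Subgroup.zpowers t)
    have h2 := four_le hχ hν (Subgroup.zpowers t) (good_of_sq (by
      rintro ⟨x, hx⟩
      apply Subtype.ext
      show x * x = 1
      rcases hP x hx with rfl | rfl
      · rw [one_mul]
      · exact h1))
    have hcard : Nat.card (Subgroup.zpowers t) = 2 := by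
      rw [Nat.card_zpowers]
      exact orderOf_eq_prime (by rw [pow_two, h1]) ht1
    rw [hcard] at h2
    have h3 : ∑ x : Subgroup.zpowers t, Complex.normSq (χ x) ≤ Complex.normSq (χ 1) + Complex.normSq (χ t) := by
      have e := Finset.sum_map Finset.univ (⟨fun x : Subgroup.zpowers t => (x : G), Subtype.val_injective⟩ :
        Subgroup.zpowers t ↪ G) (fun g => Complex.normSq (χ g))
      calc ∑ x : Subgroup.zpowers t, Complex.normSq (χ x) = _ := e.symm
        _ ≤ ∑ g ∈ ({1, t} : Finset G), Complex.normSq (χ g) := by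
          refine Finset.sum_le_sum_of_subset_of_nonneg ?_ fun _ _ _ => Complex.normSq_nonneg _
          intro g hg
          rw [Finset.mem_map] at hg
          obtain ⟨x, -, rfl⟩ := hg
          rw [Finset.mem_insert, Finset.mem_singleton]
          exact hP x x.2
        _ = _ := Finset.sum_pair ht1.symm
    have h4 : Complex.normSq (χ 1) ≤ 4 := by
      rw [hd1, Complex.normSq_natCast]
      nlinarith
    push_cast at h2
    linarith
  have h1 := sum_normSq hχ
  have hcard := A.card_mul_index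
  rw [hi] at hcard
  have h2 : (4 : ℝ) * Nat.card A ≤ ∑ g, Complex.normSq (χ g) := by
    let f : A → G := fun a => t₀ * a
    have hf : Function.Injective f := fun a b hab => Subtype.ext (mul_left_cancel hab)
    have := Fintype.ofFinite A
    have h3 := sum_comp_le f hf (fun g => Complex.normSq (χ g)) fun _ => Complex.normSq_nonneg _
    refine le_trans ?_ h3
    calc (4 : ℝ) * Nat.card A = ∑ _a : A, (4 : ℝ) := by
          rw [Finset.sum_const, Finset.card_univ, nsmul_eq_mul, ← Nat.card_eq_fintype_card, mul_comm]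
      _ ≤ _ := Finset.sum_le_sum fun a _ => hfour _ fun h => ht₀ (by
          have h5 : t₀ * (a : G) * (a : G)⁻¹ ∈ A := mul_mem h (inv_mem a.2)
          rwa [mul_inv_cancel_right] at h5)
  rw [h1] at h2
  have h3 : (Nat.card G : ℝ) = Nat.card A * 2 := by exact_mod_cast hcard.symm
  have h4 : (0 : ℝ) < Nat.card A := Nat.cast_pos.2 Nat.card_pos
  linarith

/-- **Groups whose 2-subgroups are elementary abelian.** -/
theorem good_of_elem {G : Type u} [Group G] [Finite G]
    (h : ∀ P : Subgroup G, IsPGroup 2 P → ∀ x ∈ P, x * x = 1) : FSGood True G := by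
  refine fsGood_of_cover fun c hc P hP hcP => ?_
  refine ⟨Subgroup.zpowers c ⊔ P, (le_sup_left : _ ≤ Subgroup.zpowers c ⊔ P) (Subgroup.mem_zpowers c), le_sup_right,
    good_sup hc P hP hcP (good_of_sq fun x => Subtype.ext (h P hP x x.2))⟩

end Cfsg.Agent.H999.FR
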